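import Cfsg.Agent.Lib.Classical.BN.Main
import Cfsg.Agent.Lib.BN.SplitGen

/-!
In characteristic two the squares of unipotent elements of the classical groups are commutators.
-/

set_option autoImplicit false
set_option linter.unusedSectionVars false

namespace Cfsg.Agent.Lib.Classical.BN

open Matrix Cfsg.Agent.Lib.BN
open scoped commutatorElement

variable {ι : Type} [Fintype ι] [DecidableEq ι] {F : Type*} [Field F]

namespace Space

variable (S : Space ι F)

/-- Vectors orthogonal to the frame are isotropic, or the form is hermitian with trace one. -/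
def EvenSq : Prop :=
  (∀ x, (∀ a, x (S.ix a) = 0) → S.h x x = 0) ∨
    ∃ μ : F, μ + S.τ μ = 1 ∧ (∀ c, S.τ (S.τ c) = c) ∧ (∀ x y, S.h y x = S.τ (S.h x y)) ∧ ∀ x, S.h x x = 0 → S.Sing x

variable [CharP F 2]

theorem eq_one_of_fix [Finite F] (hker : ∀ g ∈ S.G, g ^ 2 = 1 → (∀ a, g.1 *ᵥ S.v a = S.v a) → g = 1)
    {g : GL ι F} (hg : g ∈ S.U) (hfix : ∀ a, g.1 *ᵥ S.v a = S.v a) : g = 1 := by
  haveI : Fact (Nat.Prime 2) := ⟨Nat.prime_two⟩
  obtain ⟨k, hk⟩ := S.U_isPGroup 2 ⟨g, hg⟩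
  have hk' : g ^ 2 ^ k = 1 := congrArg Subtype.val hk
  clear hk
  induction k generalizing g with
  | zero => simpa using hk'
  | succ k ih =>
    have hpow : ∀ n : ℕ, ∀ a, (g ^ n).1 *ᵥ S.v a = S.v a := by
      intro n
      induction n with
      | zero => intro a; rw [pow_zero, act_one]
      | succ n ihn => intro a; rw [pow_succ, act_mul, hfix, ihn]
    have h2 : (g ^ 2 ^ k) ^ 2 = 1 := by rw [← pow_mul, ← pow_succ]; exact hk'
    exact ih hg hfix (hker _ (pow_mem hg.1.1 _) h2 (hpow _))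

theorem two_eq : (2 : F) = 0 := CharP.cast_eq_zero F 2

theorem unip_scale {u : GL ι F} (hu : u ∈ S.U) {z : Fin S.m × Bool} (h : S.Scales u z) :
    u.1 *ᵥ S.v z = S.v z := by
  haveI : Fact (Nat.Prime 2) := ⟨Nat.prime_two⟩
  obtain ⟨c, hc⟩ := h
  obtain ⟨k, hk⟩ := S.U_isPGroup 2 ⟨u, hu⟩
  have hk' : u ^ 2 ^ k = 1 := congrArg Subtype.val hk
  have hi : ∀ i : ℕ, (u ^ i).1 *ᵥ S.v z = c ^ i • S.v z := by
    intro i
    induction i with
    | zero => rw [pow_zero, act_one, pow_zero, one_smul]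
    | succ i ih => rw [pow_succ', act_mul, ih, act_smul, hc, smul_smul, pow_succ]
  have h3 := congrFun (hi (2 ^ k)) (S.ix z)
  rw [hk', act_one, Pi.smul_apply, S.v_self, smul_eq_mul, mul_one] at h3
  have h4 : (c - 1) ^ 2 ^ k = 0 := by rw [sub_pow_char_pow, one_pow, ← h3, sub_self]
  rw [hc, sub_eq_zero.1 (pow_eq_zero_iff (pow_ne_zero k two_ne_zero) |>.1 h4), one_smul]

theorem h_perp {y : ι → F} (hy : ∀ z, y (S.ix z) = 0) (b : Fin S.m × Bool) :
    S.h y (S.v b) = 0 ∧ S.h (S.v b) y = 0 := by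
  have h : S.h y (S.v b) = 0 := by rw [S.h_coord, hy, zero_mul]
  exact ⟨h, S.symm0 _ _ h⟩

theorem short_facts {u : GL ι F} {a : Fin S.m × Bool} (hu : u ∈ S.U) (hs : S.IsShort u a) :
    (∀ z, z ≠ bar a → u.1 *ᵥ S.v z = S.v z) ∧
    (∀ z, z ≠ a → z ≠ bar a → (u.1 *ᵥ S.v (bar a)) (S.ix z) = 0) ∧
    (u.1 *ᵥ S.v (bar a)) (S.ix (bar a)) = 1 ∧
    ∀ y, (∀ z, y (S.ix z) = 0) → ∃ e : F, u.1 *ᵥ y = y + e • S.v a ∧
      e * S.h (S.v a) (S.v (bar a)) = S.h y (u.1 *ᵥ S.v (bar a)) := by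
  have hfix : ∀ z, z ≠ BN.bar a → u.1 *ᵥ S.v z = S.v z := fun z hz => S.unip_scale hu (hs z hz)
  have hkey : ∀ (x : ι → F) (z), z ≠ a →
      S.h (u.1 *ᵥ x) (S.v (BN.bar z)) = S.h x (S.v (BN.bar z)) := fun x z hz => by
    conv_lhs => rw [← hfix (BN.bar z) fun e => hz (bar_inj e)]
    exact S.inv u hu.1.1 _ _
  have hcoord : ∀ (x : ι → F) (z), z ≠ a → (u.1 *ᵥ x - x) (S.ix z) = 0 := fun x z hz => by
    rw [S.coord_eq_zero_iff, sub_eq_add_neg, S.add_l, S.neg_l, hkey x z hz, add_neg_cancel]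
  refine ⟨hfix, fun z h1 h2 => ?_, ?_, fun y hy => ?_⟩
  · have := hcoord (S.v (BN.bar a)) z h1
    rwa [Pi.sub_apply, S.v_ne (Ne.symm h2), sub_zero] at this
  · have := hcoord (S.v (BN.bar a)) _ (bar_ne a)
    rwa [Pi.sub_apply, S.v_self, sub_eq_zero] at this
  · set y' := u.1 *ᵥ y - y with hy'
    have hy'e : y' = y' (S.ix a) • S.v a := by
      funext c
      by_cases hc : ∀ z, c ≠ S.ix z
      · rw [Pi.smul_apply, S.v_core a hc, smul_zero, hy', Pi.sub_apply, sub_eq_zero]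
        conv_lhs => rw [pi_eq_sum_univ' y, Matrix.mulVec_sum, Finset.sum_apply]
        conv_rhs => rw [pi_eq_sum_univ' y, Finset.sum_apply]
        refine Finset.sum_congr rfl fun d _ => ?_
        rw [Matrix.mulVec_smul, Pi.smul_apply, Pi.smul_apply]
        by_cases hd : ∀ z, d ≠ S.ix z
        · rw [hu.2.2 d hd c hc]
        · push Not at hd
          obtain ⟨z, rfl⟩ := hd
          rw [hy z, zero_smul, zero_smul]
      · push Not at hc
        obtain ⟨z, rfl⟩ := hc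
        by_cases hz : z = a
        · subst hz; simp [S.v_self]
        · rw [show y' (S.ix z) = 0 from hcoord y z hz, Pi.smul_apply, S.v_ne (Ne.symm hz), smul_zero]
    refine ⟨y' (S.ix a), by rw [← hy'e, hy', add_sub_cancel], ?_⟩
    have h1 := S.inv u hu.1.1 y (S.v (BN.bar a))
    rw [(S.h_perp hy _).1, ← add_sub_cancel y (u.1 *ᵥ y), ← hy', hy'e, S.add_l, S.smul_l] at h1
    have h2 : S.h (S.v a) (u.1 *ᵥ S.v (BN.bar a)) = S.h (S.v a) (S.v (BN.bar a)) := by
      conv_lhs => rw [← hfix a fun e => bar_ne a e.symm]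
      exact S.inv u hu.1.1 _ _
    rw [h2] at h1
    rw [eq_neg_of_add_eq_zero_right h1]
    exact CharTwo.neg_eq _

/-- Squares of short root elements. -/
theorem short_sq [Finite F] (hker : ∀ g ∈ S.G, g ^ 2 = 1 → (∀ a, g.1 *ᵥ S.v a = S.v a) → g = 1)
    (he : S.EvenSq) {j : Fin S.m} (hj : j.val + 1 = S.m) {u : GL ι F} (hu : u ∈ S.Xs (j, false)) :
    u * u = 1 ∨ ∃ u₁ ∈ S.Xs (j, false), u * u = ⁅u₁, u⁆ := by
  have hb : BN.bar (j, false) = (j, true) := rfl
  obtain ⟨hfix, hoff, hone, hperp⟩ := S.short_facts hu.1 hu.2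
  rw [hb] at hfix hoff hone hperp
  set a : Fin S.m × Bool := (j, false) with ha
  set f : Fin S.m × Bool := (j, true) with hf
  have hne : a ≠ f := by simp [a, f]
  set d := (u.1 *ᵥ S.v f) (S.ix a) with hd
  set w := u.1 *ᵥ S.v f - S.v f - d • S.v a with hw
  have hwz : ∀ z, w (S.ix z) = 0 := by
    intro z
    rw [hw, Pi.sub_apply, Pi.sub_apply, Pi.smul_apply]
    by_cases h1 : z = a
    · subst h1; rw [S.v_ne hne.symm, S.v_self, ← hd, sub_zero, smul_eq_mul, mul_one, sub_self]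
    by_cases h2 : z = f
    · subst h2; rw [hone, S.v_self, S.v_ne hne, smul_zero, sub_self, sub_zero]
    rw [hoff z h1 h2, S.v_ne (Ne.symm h2), S.v_ne (Ne.symm h1), smul_zero, sub_zero, sub_zero]
  have huf : u.1 *ᵥ S.v f = S.v f + w + d • S.v a := by rw [hw]; abel
  obtain ⟨e, hew, hek⟩ := hperp w hwz
  have hk : S.h (S.v a) (S.v f) ≠ 0 := by
    simpa [v, a, f, BN.bar] using S.h_bar (j, false)
  have hek' : e * S.h (S.v a) (S.v f) = S.h w w := by
    rw [hek, huf, S.add_r, S.add_r, (S.h_perp hwz f).1, S.smul_r, (S.h_perp hwz a).1, mul_zero,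
      zero_add, add_zero]
  have hua : u.1 *ᵥ S.v a = S.v a := hfix a hne
  have huuf : u.1 *ᵥ (u.1 *ᵥ S.v f) = S.v f + e • S.v a := by
    rw [huf, act_add, act_add, act_smul, huf, hew, hua]
    match_scalars <;> grind
  have hU2 : u * u ∈ S.U := mul_mem hu.1 hu.1
  by_cases hw0 : S.h w w = 0
  · left
    refine S.eq_one_of_fix hker hU2 fun z => ?_
    rw [act_mul]
    by_cases h : z = f
    · subst h
      rw [huuf, (mul_eq_zero.1 (hek'.trans hw0)).resolve_right hk, zero_smul, add_zero]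
    · rw [hfix z h, hfix z h]
  right
  obtain ⟨μ, hμ, hinv, hherm, hsing⟩ := he.resolve_left fun h => hw0 (h w hwz)
  have hff : S.h (S.v f) (S.v f) = 0 := S.h_v_v (by simp [BN.bar, f])
  have haa : S.h (S.v a) (S.v a) = 0 := S.h_v_v (by simp [BN.bar, a])
  set k := S.h (S.v a) (S.v f) with hkdef
  have hfa : S.h (S.v f) (S.v a) = S.τ k := hherm _ _
  have hsq : ∀ (ν c : F), S.h (S.v f + ν • w + c • S.v a) (S.v f + ν • w + c • S.v a) =
      ν * S.τ ν * S.h w w + (c * k + S.τ (c * k)) := by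
    intro ν c
    simp only [S.add_l, S.add_r, S.smul_l, S.smul_r, hff, haa, (S.h_perp hwz f).1, (S.h_perp hwz f).2,
      (S.h_perp hwz a).1, (S.h_perp hwz a).2, ← hkdef, hfa, map_mul]
    ring
  have h0 : S.h w w + (d * k + S.τ (d * k)) = 0 := by
    have := hsq 1 d
    rw [one_smul, map_one, one_mul, one_mul, ← huf, S.inv u hu.1.1.1, hff] at this
    exact this.symm
  set x := S.v f + μ • w + (μ * S.τ μ * d) • S.v a with hx
  have hxs : S.Sing x := hsing _ (by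
    rw [hx, hsq]
    simp only [map_mul, hinv] at h0 ⊢
    linear_combination μ * S.τ μ * h0)
  obtain ⟨u₁, hu₁, hu₁f, -, -⟩ := S.exists_Xs j hj hxs
    (by
      show S.h (S.v a) x = S.h (S.v a) (S.v f)
      rw [hx, S.add_r, S.add_r, S.smul_r, S.smul_r, (S.h_perp hwz a).2, haa, mul_zero, mul_zero,
        add_zero, add_zero])
    (fun z hz => by
      show (S.v f + μ • w + (μ * S.τ μ * d) • S.v a) (S.ix z) = 0
      rw [Pi.add_apply, Pi.add_apply, Pi.smul_apply, Pi.smul_apply, hwz,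
        S.v_ne (fun e => hz (by rw [← e])), S.v_ne (fun e => hz (by rw [← e]))]
      simp)
  refine ⟨u₁, hu₁, ?_⟩
  change u₁.1 *ᵥ S.v f = x at hu₁f
  obtain ⟨hfix1, -, -, hperp1⟩ := S.short_facts hu₁.1 hu₁.2
  rw [hb] at hfix1 hperp1
  obtain ⟨e₁, he₁, he₁k⟩ := hperp1 w hwz
  have he₁v : e₁ = S.τ μ * e := mul_right_cancel₀ hk (by
    rw [mul_assoc, hek', he₁k, hu₁f, hx, S.add_r, S.add_r, S.smul_r, S.smul_r, (S.h_perp hwz f).1,
      (S.h_perp hwz a).1, mul_zero, zero_add, add_zero])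
  have hu₁a : u₁.1 *ᵥ S.v a = S.v a := hfix1 a hne
  have heq : (u₁ * u)⁻¹ * (u * u * (u * u₁)) = 1 := by
    refine S.eq_one_of_fix hker (mul_mem (inv_mem (mul_mem hu₁.1 hu.1)) (mul_mem hU2 (mul_mem hu.1 hu₁.1))) fun z => ?_
    rw [act_mul]
    refine act_inv ?_
    by_cases h : z = f
    · subst h
      rw [act_mul u₁ u, huf, act_add, act_add, act_smul, hu₁f, he₁, hu₁a, act_mul, act_mul,
        act_mul, hu₁f, hx]
      simp only [act_add, act_smul, huf, hew, hua, he₁v]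
      have hτ : S.τ μ = 1 + μ := by
        rw [← hμ, add_comm μ, add_assoc, CharTwo.add_self_eq_zero, add_zero]
      rw [hτ]
      match_scalars <;> grind
    · rw [act_mul, act_mul, act_mul, act_mul, hfix1 z h, hfix z h, hfix z h, hfix z h, hfix1 z h]
  rw [inv_mul_eq_one] at heq
  rw [commutatorElement_def, heq]
  group

theorem root_sq [Finite F] (hker : ∀ g ∈ S.G, g ^ 2 = 1 → (∀ a, g.1 *ᵥ S.v a = S.v a) → g = 1)
    {p r : Fin S.m × Bool} (h1 : r ≠ p) (h2 : r ≠ bar p) {u : GL ι F} (hu : u ∈ S.U)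
    (hr : S.IsRoot u p r) : u * u = 1 := by
  refine S.eq_one_of_fix hker (mul_mem hu hu) fun z => ?_
  rw [act_mul]
  by_cases hzr : z = r
  · subst hzr
    obtain ⟨t, ht⟩ := hr.2.1
    rw [ht, act_add, act_smul, ht, hr.1 p h1.symm (fun e => bar_ne p e.symm), add_assoc, ← add_smul,
      CharTwo.add_self_eq_zero, zero_smul, add_zero]
  by_cases hzp : z = BN.bar p
  · subst hzp
    obtain ⟨t, ht⟩ := hr.2.2
    rw [ht, act_add, act_smul, ht, hr.1 (BN.bar r) (bar_ne r) (fun e => h1 (bar_inj e)), add_assoc,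
      ← add_smul, CharTwo.add_self_eq_zero, zero_smul, add_zero]
  rw [hr.1 z hzr hzp, hr.1 z hzr hzp]

/-- Squares in the unipotent radical of the quotient are products of commutators. -/
theorem exists_split_sq [Finite F] [Fact (Nat.Prime 2)] (ht : S.Typed)
    (hker : ∀ g ∈ S.G, g ^ 2 = 1 → (∀ a, g.1 *ᵥ S.v a = S.v a) → g = 1) (he : S.EvenSq)
    {H : Type*} [Group H] (f : S.G →* H) (hf : Function.Surjective f)
    (hk : f.ker ≤ Subgroup.center S.G) :
    ∃ D : Split H, IsPGroup 2 D.U ∧ ¬ 2 ∣ Nat.card D.T ∧ ∀ x ∈ D.U, x * x ∈ ⁅D.U, D.U⁆ := by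
  obtain ⟨N, hU, hT⟩ := S.exists_nodes_facts (p := 2) ht hker
  have hk' := hk.trans (S.center_le_T N)
  refine ⟨(S.split N).map f hf hk', hU.map f, fun h => hT (h.trans (Subgroup.card_map_dvd _ f)), ?_⟩
  have hbase : ∀ x ∈ (S.split N).U, x * x ∈ ⁅(S.split N).U, (S.split N).U⁆ := by
    refine Split.sq_mem_commutator (S.split_sat N) hU hT ?_
    rintro s - u ⟨i, hi, hu⟩
    rcases N.kind i with ⟨p, r, h1, h2, hsub⟩ | ⟨j, hj, hX⟩
    · exact Or.inl (Subtype.ext (S.root_sq hker h1 h2 ((N.node i).sub hu) (hsub hu)))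
    · rw [hX] at hu
      rcases S.short_sq hker he hj hu with h | ⟨u₁, hu₁, h⟩
      · exact Or.inl (Subtype.ext h)
      · exact Or.inr ⟨⟨u₁, hu₁.1.1.1⟩, ⟨i, hi, hX ▸ hu₁⟩, u, ⟨i, hi, hX ▸ hu⟩, Subtype.ext h⟩
  rintro _ ⟨x, hx, rfl⟩
  show f x * f x ∈ ⁅(S.split N).U.map f, (S.split N).U.map f⁆
  rw [← Subgroup.map_commutator, ← map_mul]
  exact ⟨_, hbase x hx, rfl⟩

end Space

end Cfsg.Agent.Lib.Classical.BN
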